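/-
Project ZD, job P3: the two-point stabilisers under `CycTwo`; `(T*)` and `(K2)`.
-/
import Cfsg.Agent.ZD.A2
import Cfsg.Agent.ZD.P2a
import Cfsg.Agent.ZD.Tools
import Cfsg.Agent.Bender.ETools
import Cfsg.Agent.Grp.PNilp
import Cfsg.Agent.Transfer.Control

set_option autoImplicit false
open Cfsg Subgroup MulAction CL.Even CL.Grp CL.Loc CL.Inv
open CL.Bender (Fx st2)
open scoped Pointwise

namespace CL.ZD

universe u

variable {G : Type u} [Group G] [Finite G]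

/-- With cyclic 2-subgroups the elements of odd order lie in `O(E)`. -/
theorem p3e_mem_core {E : Subgroup G} (hc : ∀ P ≤ E, IsPGroup 2 P → IsCyclic P) {x : G} (hx : x ∈ E)
    (ho : Odd (orderOf x)) : x ∈ pPrimeCoreOf 2 E := by
  have := Fact.mk Nat.prime_two
  have h : HasNormalPComplement 2 E := by
    by_cases he : 2 ∣ Nat.card E
    · obtain ⟨P⟩ : Nonempty (Sylow 2 E) := inferInstance
      have h1 := hc _ (map_subtype_le (P : Subgroup E)) (P.2.map _)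
      have h2 : IsCyclic P := isCyclic_of_surjective _ (equivMapOfInjective _ _ E.subtype_injective).symm.surjective
      exact CL.Transfer.hasNormalPComplement_of_normalizer_le_centralizer P
        (h2.normalizer_le_centralizer ((Nat.minFac_eq_two_iff _).2 he))
    · exact hasNormalPComplement_of_not_dvd he
  refine le_pPrimeCoreOf (res_le E) (self_le_norm_res E) ?_ (mem_res hx (Nat.coprime_two_right.2 ho))
  rw [← res_def, card_map_subtype]
  exact hasNormalPComplement_iff_coprime_pResidual.1 h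

variable {Ω : Type*} [MulAction G Ω] {D : Set G} {a b c : Ω}

theorem CycTwo.mem_core (hc : CycTwo Ω G) (hab : a ≠ b) {x : G} (hx : x ∈ st2 G a b) (ho : Odd (orderOf x)) :
    x ∈ pPrimeCoreOf 2 (st2 G a b) :=
  p3e_mem_core (fun P h1 h2 => hc a b P hab h1 h2) hx ho

theorem CycTwo.odd_le (hc : CycTwo Ω G) (hab : a ≠ b) {X : Subgroup G} (hX : X ≤ st2 G a b)
    (ho : Odd (Nat.card X)) : X ≤ pPrimeCoreOf 2 (st2 G a b) :=
  fun _ hx => hc.mem_core hab (hX hx) (odd_ord_of_mem ho hx)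

theorem p3e_odd_of_pgroup {p : ℕ} [Fact p.Prime] (hp : p ≠ 2) {R : Subgroup G} (hR : IsPGroup p R) :
    Odd (Nat.card R) := by
  obtain ⟨n, hn⟩ := hR.exists_card_eq
  exact hn ▸ ((Fact.out : p.Prime).odd_of_ne_two hp).pow

/-- The `ZJ`-factorisation of the two-point stabiliser. -/
theorem CycTwo.zj (hc : CycTwo Ω G) (hab : a ≠ b) {p : ℕ} [Fact p.Prime] (hp : p ≠ 2) {R : Subgroup G}
    (hR : IsSylowIn p R (st2 G a b)) {K : Subgroup G} (h1 : pPrimeCoreOf p (pPrimeCoreOf 2 (st2 G a b)) ≤ K)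
    (h2 : st2 G a b ⊓ 𝒩(centerThompsonOf 0 R) ≤ K) : st2 G a b ≤ K := by
  have hE := pPrimeCoreOf_le 2 (st2 G a b)
  have hR0 := hR.of_le (hc.odd_le hab hR.le (p3e_odd_of_pgroup hp hR.isPGroup)) hE
  have ho := odd_core (st2 G a b)
  intro x hx
  obtain ⟨n, hn, y, hy, rfl⟩ := frattini_mul hR0 hE (le_normalizer_pPrimeCoreOf 2 _) hx
  obtain ⟨l, hl, m, hm, hm', rfl⟩ := CL.Bender.zjFact G p hp _ R (CL.Odd.feit_thompson ho)
    ⟨⊥, ⟨bot_le, IsPGroup.of_bot, by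
      rw [relIndex_bot_left]
      exact fun e => (Nat.not_even_iff_odd.2 ho) (even_iff_two_dvd.2 e)⟩, inferInstance⟩ hR0 y hy
  exact mul_mem (h2 ⟨hn.1, normalizer_le_normalizer_centerThompsonOf 0 R hn.2⟩) (mul_mem (h1 hl) (h2 ⟨hE hm, hm'⟩))

/-- `(T*)`: an element `x` fixing `c` and inverted by `t ∈ D` fixing `c` fixes every point of `L • c`. -/
theorem IsZD.p3e_tstar (h : IsZD Ω D) {t x : G} {L : Subgroup G} (htD : t ∈ D) (htc : t • c = c)
    (hxc : x • c = c) (hinv : t * x * t⁻¹ = x⁻¹) (hx : Odd (orderOf x)) (hL : Odd (Nat.card L))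
    (hco : (Nat.card L).Coprime (orderOf x)) (htL : t ∈ 𝒩(L)) (hxL : x ∈ 𝒩(L)) {l : G} (hl : l ∈ L) :
    x • l • c = l • c := by
  have ht := h.ord t htD
  rcases eq_or_ne x 1 with rfl | hx1
  · exact one_smul _ _
  have hreg : CL.Odd.Semiregular (zpowers x) (zpowers t) := by
    intro r hr h1
    obtain rfl := CL.Bender.eq_of_mem_zpowers_inv ht hr h1
    refine eq_bot_iff.2 ?_
    rintro _ ⟨⟨n, rfl⟩, hy⟩
    refine mem_bot.2 (CL.Bender.eq_one_of_inverted_of_comm (s := r) (hx.of_dvd_nat (orderOf_dvd_of_mem_zpowers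
      ⟨n, rfl⟩)) ?_ (mem_centralizer_singleton_iff.1 hy).symm)
    rw [← conj_zpow, hinv, inv_zpow]
  have hF := CL.Odd.Frob.of_reg (zpowers_le.2 (CL.Bender.mem_norm_zpowers_of_inverted ht hinv))
    (zpowers_eq_bot.not.2 hx1) (zpowers_eq_bot.not.2 (ne_one_of_ord ht)) hreg
  have hM : Nat.card (zpowers x ⊔ zpowers t : Subgroup G) = orderOf x * 2 := by
    rw [← hF.card, Nat.card_zpowers, Nat.card_zpowers, ht]
  have hMc : zpowers x ⊔ zpowers t ≤ stabilizer G c := sup_le (zpowers_le.2 hxc) (zpowers_le.2 htc)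
  have hML : zpowers x ⊔ zpowers t ≤ 𝒩(L) := sup_le (zpowers_le.2 hxL) (zpowers_le.2 htL)
  have hcoL : (Nat.card L).Coprime (Nat.card (zpowers x ⊔ zpowers t : Subgroup G)) := by
    rw [hM]
    exact hco.mul_right (Nat.coprime_two_right.2 hL)
  have hdvd : Nat.card (L ⊓ stabilizer G c : Subgroup G) ∣ Nat.card L := card_dvd_of_le inf_le_left
  have w1 := hF.wielandt hML hcoL (CL.Odd.feit_thompson hL)
  have w2 := hF.wielandt (V := L ⊓ stabilizer G c) (le_norm_inf hML (le_norm_of_le hMc))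
    (hcoL.of_dvd_left hdvd) (CL.Odd.feit_thompson (hL.of_dvd_nat hdvd))
  have hC : 𝒞(zpowers t) ≤ stabilizer G c := fun g hg =>
    h.a1_comm_fix htD htc (comm_of_mem hg (mem_zpowers t)).symm
  have e1 : L ⊓ stabilizer G c ⊓ 𝒞(zpowers t) = L ⊓ 𝒞(zpowers t) := by
    rw [inf_assoc, inf_eq_right.2 hC]
  have e2 : L ⊓ stabilizer G c ⊓ 𝒞(zpowers x ⊔ zpowers t) = L ⊓ 𝒞(zpowers x ⊔ zpowers t) := by
    rw [inf_assoc, inf_eq_right.2 ((cent_mono le_sup_right).trans hC)]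
  rw [e1, e2] at w2
  have hf : IsFact L (L ⊓ 𝒞(zpowers x)) (L ⊓ stabilizer G c) := by
    refine isFact_of_card_le inf_le_left inf_le_left (le_of_eq ?_)
    have e3 : L ⊓ 𝒞(zpowers x) ⊓ (L ⊓ stabilizer G c) = L ⊓ stabilizer G c ⊓ 𝒞(zpowers x) := by
      rw [inf_comm, ← inf_assoc, inf_right_comm L, inf_idem]
    rw [e3]
    have hpos : 0 < Nat.card (L ⊓ 𝒞(zpowers x ⊔ zpowers t) : Subgroup G) ^ Nat.card (zpowers t) :=
      pow_pos Nat.card_pos _
    refine Nat.eq_of_mul_eq_mul_left hpos ?_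
    rw [← mul_assoc, w1, mul_left_comm _ _ (Nat.card (L ⊓ stabilizer G c : Subgroup G)), w2]
    ring
  obtain ⟨m, hm, n, hn, rfl⟩ := hf.exists_mul hl
  rw [mul_smul, show n • c = c from hn.2, ← mul_smul, comm_of_mem hm.2 (mem_zpowers x), mul_smul, hxc]

/-- `(K2)` -/
theorem Bas0.p3e_k2 (h : Bas0 Ω D) {X : Subgroup G} {t w : G} (ht : t ∈ D) (hw : w ∈ D) (hne : t ≠ w)
    (hc : t * w = w * t) (htN : t ∈ 𝒩(X)) (hwN : w ∈ 𝒩(X)) (htC : t ∉ 𝒞(X)) (htc : t • c = c) : Fx 𝒞(X) c := by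
  intro g hg
  by_cases h1 : ∀ e ∈ D, e ∉ 𝒞(X)
  · have hn : ∀ x ∈ 𝒩(X), x ∈ 𝒩(pPrimeCoreOf 2 𝒞(X)) := fun x hx =>
      normalizer_le_normalizer_pPrimeCoreOf 2 _ (norm_le_norm_cent X hx)
    have h2 := h.odd_fix _ (odd_core _) t ht w hw hne hc (hn t htN) (hn w hwN) c htc _
      (h.zstar _ t ht (norm_le_norm_cent X htN) h1 _ (inv_mem hg))
    rw [inv_inv, h.toIsZD.a1_inv ht, mul_smul, mul_smul, mul_smul, smul_eq_iff_eq_inv_smul, h.toIsZD.a1_inv ht, htc,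
      inv_smul_eq_iff] at h2
    exact h.toIsZD.a1_uniq ht h2 htc
  push Not at h1
  obtain ⟨e, he, heC⟩ := h1
  by_contra hn
  have hcP : c ∈ Pts Ω D 𝒩(X) := ⟨t, ht, htN, htc⟩
  obtain ⟨k, hk, e1⟩ := h.cls 𝒩(X) ⟨_, h.smul_mem _ g (le_normalizer (cent_le_norm X hg)) c hcP, c, hcP, hn⟩ e he t ht
    (cent_le_norm X heC) htN
  exact htC (e1 ▸ conj_mem (norm_le_norm_cent X (gen_le hk)) heC)

omit [Finite G] in
theorem Cx.p3e_gc (h : Cx Ω D) (hab : a ≠ b) {t s : G} (ht : t ∈ D) (tab : t • a = b) {M : Subgroup G} (hM : M ≠ ⊤)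
    (hE : st2 G a b ≤ M) (tM : t ∈ M) (hs : s ∈ D) (sa : s • a = a) (sM : s ∈ M) : GC Ω D := by
  refine ⟨M, a, hM, fun d hd => ?_, t, tM, tab ▸ hab.symm⟩
  obtain ⟨x, hx, -, rfl⟩ := h.FF_trans ⊤ a b hab t ⟨ht, mem_top _, tab⟩ s ⟨hs, mem_top _, sa⟩ d hd
  have := hE (h.FF_le ⊤ a b hx).2
  exact mul_mem (mul_mem this sM) (inv_mem this)

end CL.ZD
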